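import Mathlib
import Cfsg.Agent.Lib.Helper81.CS3.NGDefs
import Cfsg.Agent.Lib.Helper71.CS3.Basics
import Cfsg.Agent.Lib.Helper67.SylowLemmas

/-!
# CS3 (S4284), part NG, package [I]: `m` prime, every non-central `m`-element of type (i)
is impossible.
-/

set_option autoImplicit false

namespace Cfsg.Agent.Lib.Helper70.CS3

open Cfsg.Agent.Lib.Helper81.CS3

universe u

variable {G : Type u} [Group G]

theorem ci_mem (g a : G) : g ∈ Subgroup.centralizer ({a} : Set G) ↔ Commute g a := by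
  rw [Subgroup.mem_centralizer_iff]
  constructor
  · intro h
    exact (h a (Set.mem_singleton a)).symm
  · intro h x hx
    rw [Set.mem_singleton_iff] at hx
    subst hx
    exact h.symm

theorem ci_idx_conj (k x : G) : idx (k * x * k⁻¹) = idx x := by
  show (Subgroup.centralizer ({k * x * k⁻¹} : Set G)).index = (Subgroup.centralizer ({x} : Set G)).index
  rw [← Cfsg.Agent.Lib.Helper67.ncard_conjClasses_carrier,
    ← Cfsg.Agent.Lib.Helper67.ncard_conjClasses_carrier]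
  have : ConjClasses.mk (k * x * k⁻¹) = ConjClasses.mk x := by
    rw [ConjClasses.mk_eq_mk_iff_isConj, isConj_iff]
    exact ⟨k⁻¹, by group⟩
  rw [this]

theorem ci_comm_iff [Finite G] {w v : G} (hw : AbC w) (hv : Commute v w) (hidx : idx v = idx w) :
    ∀ g : G, Commute g v ↔ Commute g w := by
  have hle : Subgroup.centralizer ({w} : Set G) ≤ Subgroup.centralizer ({v} : Set G) := by
    intro g hg
    rw [ci_mem] at hg ⊢
    exact hw g v hg hv
  have h1 := Subgroup.relIndex_mul_index hle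
  have hpos : 0 < (Subgroup.centralizer ({w} : Set G)).index :=
    Nat.pos_of_ne_zero Subgroup.index_ne_zero_of_finite
  have hidx' : (Subgroup.centralizer ({v} : Set G)).index =
      (Subgroup.centralizer ({w} : Set G)).index := hidx
  have h2 : (Subgroup.centralizer ({w} : Set G)).relIndex
      (Subgroup.centralizer ({v} : Set G)) = 1 := by
    rw [hidx'] at h1
    exact Nat.eq_of_mul_eq_mul_right hpos (by rw [h1, one_mul])
  have hge := Subgroup.relIndex_eq_one.mp h2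
  intro g
  rw [← ci_mem, ← ci_mem]
  exact ⟨fun h => hge h, fun h => hle h⟩

theorem ci_coprime_trick (x σ z : G) (hz : z ∈ Subgroup.center G) (h : σ * x * σ⁻¹ = x * z)
    (hco : (orderOf x).Coprime (orderOf σ)) : z = 1 := by
  have hzc : ∀ a : G, Commute z a := fun a => (Subgroup.mem_center_iff.mp hz a).symm
  have hpow : ∀ j : ℕ, σ ^ j * x * (σ ^ j)⁻¹ = x * z ^ j := by
    intro j
    induction j with
    | zero => simp
    | succ j ih =>
      have e1 : σ ^ (j + 1) * x * (σ ^ (j + 1))⁻¹ = σ * (σ ^ j * x * (σ ^ j)⁻¹) * σ⁻¹ := by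
        rw [pow_succ']; group
      rw [e1, ih]
      have hc : Commute (z ^ j) σ⁻¹ := ((hzc σ).pow_left j).inv_right
      have e2 : σ * (x * z ^ j) * σ⁻¹ = (σ * x * σ⁻¹) * z ^ j := by
        calc σ * (x * z ^ j) * σ⁻¹ = σ * x * (z ^ j * σ⁻¹) := by simp only [mul_assoc]
          _ = σ * x * (σ⁻¹ * z ^ j) := by rw [hc.eq]
          _ = (σ * x * σ⁻¹) * z ^ j := by simp only [mul_assoc]
      rw [e2, h, mul_assoc, ← pow_succ']
  have h1 : z ^ orderOf σ = 1 := by
    have h3 := hpow (orderOf σ)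
    rw [pow_orderOf_eq_one] at h3
    simpa using h3.symm
  have h2 : z ^ orderOf x = 1 := by
    have h3 : (x * z) ^ orderOf x = 1 := by
      rw [← h, conj_pow, pow_orderOf_eq_one]; simp
    rw [(hzc x).symm.mul_pow, pow_orderOf_eq_one, one_mul] at h3
    exact h3
  have h4 : orderOf z ∣ 1 := by
    have h5 := Nat.dvd_gcd (orderOf_dvd_of_pow_eq_one h2) (orderOf_dvd_of_pow_eq_one h1)
    have h6 : Nat.gcd (orderOf x) (orderOf σ) = 1 := hco
    rwa [h6] at h5
  exact orderOf_eq_one_iff.mp (Nat.dvd_one.mp h4)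

theorem ci_max [Finite G] {m : ℕ} (hm : m.Prime) (S Sb T : Subgroup G)
    (hcard : Nat.card S = m * Nat.card Sb) (h1 : Sb ≤ T) (h2 : T ≤ S) (t : G) (ht : t ∈ T)
    (htn : t ∉ Sb) : S ≤ T := by
  obtain ⟨d, hd⟩ := Subgroup.card_dvd_of_le h1
  have h3 := Subgroup.card_dvd_of_le h2
  rw [hd, hcard, mul_comm m] at h3
  have hpos : 0 < Nat.card Sb := Nat.card_pos
  have hdm : d ∣ m := (Nat.mul_dvd_mul_iff_left hpos).mp h3
  rcases (Nat.dvd_prime hm).mp hdm with rfl | rfl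
  · exfalso
    have e : Sb = T := Subgroup.eq_of_le_of_card_ge h1 (by rw [hd, mul_one])
    exact htn (e ▸ ht)
  · have e : T = S := Subgroup.eq_of_le_of_card_ge h2 (by rw [hd, hcard, mul_comm])
    rw [e]

theorem ci_fact {m : ℕ} (hm : m.Prime) (j c : ℕ) (hc : c.Coprime m) :
    (m ^ j * c).factorization m = j := by
  have hc0 : c ≠ 0 := by
    rintro rfl
    rw [Nat.coprime_zero_left] at hc
    exact hm.one_lt.ne' hc
  have hnd : ¬ m ∣ c := (Nat.Prime.coprime_iff_not_dvd hm).mp hc.symm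
  rw [Nat.factorization_mul (pow_ne_zero j hm.pos.ne') hc0, hm.factorization_pow]
  simp [Nat.factorization_eq_zero_of_not_dvd hnd]

theorem ci_relIndex_card (H K : Subgroup G) :
    H.relIndex K * Nat.card ↥(H ⊓ K) = Nat.card K := by
  have h1 := Subgroup.card_mul_index ((H ⊓ K).subgroupOf K)
  have h2 : Nat.card ↥((H ⊓ K).subgroupOf K) = Nat.card ↥(H ⊓ K) :=
    Nat.card_congr (Subgroup.subgroupOfEquivOfLe inf_le_right).toEquiv
  rw [h2] at h1
  have h3 : ((H ⊓ K).subgroupOf K).index = H.relIndex K := by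
    rw [Subgroup.inf_subgroupOf_right]; rfl
  rw [h3, mul_comm] at h1
  exact h1

theorem ci_orderOf_conj (c x : G) : orderOf (c * x * c⁻¹) = orderOf x := by
  have h := orderOf_injective (MulAut.conj c).toMonoidHom (MulAut.conj c).injective x
  simpa [MulAut.conj_apply] using h

/-- **[I]** `m` prime, all non-central `m`-elements of type (i): impossible. -/
theorem pkgI (hSyl : PkgSyl.{u}) (hStr : PkgStr.{u}) (hAb : PkgAb.{u}) (hStepA : PkgStepA.{u})
    (hStepB : PkgStepB.{u}) : PkgI.{u} := by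
  intro G _ _ m n hyp hNG hm hI
  haveI : Fact m.Prime := ⟨hm⟩
  -- (1) every centralizer of index `m n` is abelian
  have hAbC : ∀ w : G, idx w = m * n → AbC w := by
    intro w hw
    obtain ⟨b, hPM, hbw⟩ := hSyl m n hyp m hm dvd_rfl w
    have hAbb := hAb m n hyp hNG m b hPM (hI b hPM)
    have hidxb := (hStr m n hyp hNG m b hPM).1
    have hiff := ci_comm_iff hAbb hbw.symm (hw.trans hidxb.symm)
    intro x y hx hy
    exact hAbb x y ((hiff x).mp hx) ((hiff y).mp hy)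
  -- (2) a non-central `m`-element `b` and its structure
  obtain ⟨b, hPMb, -⟩ := hSyl m n hyp m hm dvd_rfl (1 : G)
  obtain ⟨hidxb, Sb, Ab, hSb, -, -, hcardG, ⟨j, hj⟩, hAbco⟩ := hStr m n hyp hNG m b hPMb
  have hAbb : AbC b := hAbC b hidxb
  have hbnc : b ∉ Subgroup.center G := hPMb.2.2.2
  have hbSb : b ∈ Sb := (hSb b).mpr ⟨Commute.refl b, hPMb.2.2.1⟩
  -- (3) a Sylow `m`-subgroup `S ≥ Sb`, of order `m |Sb|`
  have hSbp : IsPGroup m Sb := IsPGroup.of_card hj
  obtain ⟨S, hSbS⟩ := hSbp.exists_le_sylow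
  have hcopn : n.Coprime m := hyp.2.2.2.1.symm
  have hcardS : Nat.card S = m * Nat.card Sb := by
    rw [Sylow.card_eq_multiplicity]
    have e : Nat.card G = m ^ (j + 1) * (Nat.card Ab * n) := by
      rw [← hcardG, hj]; ring
    rw [e, ci_fact hm (j + 1) (Nat.card Ab * n) (Nat.Coprime.mul_left hAbco hcopn), hj, pow_succ']
  have hSm : ∀ σ ∈ (S : Subgroup G), ∃ k : ℕ, orderOf σ = m ^ k := by
    intro σ hσ
    obtain ⟨k, hk⟩ := S.isPGroup' ⟨σ, hσ⟩
    have hk' : σ ^ m ^ k = 1 := by simpa using congrArg Subtype.val hk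
    obtain ⟨i, -, hi⟩ := (Nat.dvd_prime_pow hm).mp (orderOf_dvd_of_pow_eq_one hk')
    exact ⟨i, hi⟩
  have hSidx : ¬ m ∣ (S : Subgroup G).index := S.not_dvd_index
  -- (4) `g ∈ S ∖ Sb`
  obtain ⟨g, hgS, hgSb⟩ : ∃ g, g ∈ (S : Subgroup G) ∧ g ∉ Sb := by
    by_contra hcon
    push Not at hcon
    have hle : (S : Subgroup G) ≤ Sb := hcon
    have h1 := Subgroup.card_le_of_le hle
    rw [hcardS] at h1
    have hpos : 0 < Nat.card Sb := Nat.card_pos
    have := hm.two_le
    nlinarith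
  have hgb : ¬ Commute g b := fun h => hgSb ((hSb g).mpr ⟨h, hSm g hgS⟩)
  have hgnc : g ∉ Subgroup.center G := by
    intro h
    exact hgb ((Subgroup.mem_center_iff.mp h b).symm)
  have hPMg : PM m m g := ⟨hm, dvd_rfl, hSm g hgS, hgnc⟩
  have hidxg : idx g = m * n := (hStr m n hyp hNG m g hPMg).1
  have hAbg : AbC g := hAbC g hidxg
  -- (5) `C(b) ∩ C(g)` is central
  have hSbcomm : ∀ u : G, Commute u b → ∀ σ ∈ Sb, Commute σ u := by
    intro u hu σ hσ
    exact hAbb σ u ((hSb σ).mp hσ).1 hu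
  have hSC : ∀ u : G, Commute u b → idx u = m → ∀ σ ∈ (S : Subgroup G), Commute σ u →
      σ ∈ Sb := by
    intro u hu hidxu σ hσ hσu
    by_contra hσSb
    have hT := ci_max hm (S : Subgroup G) Sb
      ((S : Subgroup G) ⊓ Subgroup.centralizer ({u} : Set G)) hcardS
      (le_inf hSbS (fun τ hτ => (ci_mem τ u).mpr (hSbcomm u hu τ hτ))) inf_le_left σ
      ⟨hσ, (ci_mem σ u).mpr hσu⟩ hσSb
    have hle : (S : Subgroup G) ≤ Subgroup.centralizer ({u} : Set G) := hT.trans inf_le_right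
    have hdvd := Subgroup.index_dvd_of_le hle
    have hidxu' : (Subgroup.centralizer ({u} : Set G)).index = m := hidxu
    rw [hidxu'] at hdvd
    exact hSidx hdvd
  have hZ : ∀ u : G, Commute u b → Commute u g → u ∈ Subgroup.center G := by
    intro u hub hug
    rcases Cfsg.Agent.Lib.Helper71.CS3.idx_cases hyp u with h1 | h1 | h1
    · exact (Cfsg.Agent.Lib.Helper71.CS3.idx_eq_one_iff u).mp h1
    · exfalso
      exact hgSb (hSC u hub h1 g hgS hug.symm)
    · exfalso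
      have hiff := ci_comm_iff hAbb hub ((show idx u = m * n from h1).trans hidxb.symm)
      exact hgb ((hiff g).mp hug.symm)
  -- (6) Steps A and B for `b` and for `g`
  obtain ⟨x, r, k, hr, hrm, hxo, hxb, hidxx⟩ := hStepA m n hyp hNG b hidxb hAbb
  obtain ⟨x', r', k', hr', hrm', hxo', hxg', hidxx'⟩ := hStepA m n hyp hNG g hidxg hAbg
  have hconjb : ∀ c : G, Commute (c * x * c⁻¹) b :=
    fun c => hStepB m n hyp hNG b hidxb hAbb x c hxb hidxx
  have hconjg : ∀ c : G, Commute (c * x' * c⁻¹) g :=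
    fun c => hStepB m n hyp hNG g hidxg hAbg x' c hxg' hidxx'
  -- (7) a conjugate `x₁` of `x` commuting with `x'`
  obtain ⟨c₀, hc₀⟩ : ∃ c₀ : G, Commute x' (c₀ * x * c₀⁻¹) := by
    haveI : Fact r'.Prime := ⟨hr'⟩
    have hzp : IsPGroup r' (Subgroup.zpowers x') :=
      IsPGroup.of_card (n := k') (by rw [Nat.card_zpowers, hxo'])
    obtain ⟨P, hP⟩ := hzp.exists_le_sylow
    have hnd : ¬ r' ∣ (Subgroup.centralizer ({x} : Set G)).index := by
      have e : (Subgroup.centralizer ({x} : Set G)).index = m := hidxx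
      rw [e]; exact hrm'
    obtain ⟨c, hc⟩ := Cfsg.Agent.Lib.Helper67.exists_conj_mem_centralizer_sylow P x hnd
    refine ⟨c, ?_⟩
    have hx'P : x' ∈ (P : Subgroup G) := hP (Subgroup.mem_zpowers x')
    rw [Subgroup.mem_centralizer_iff] at hc
    exact hc x' hx'P
  obtain ⟨x₁, hx₁def⟩ : ∃ x₁ : G, x₁ = c₀ * x * c₀⁻¹ := ⟨_, rfl⟩
  have hx'x₁ : Commute x' x₁ := by rw [hx₁def]; exact hc₀
  have hx₁b : Commute x₁ b := by rw [hx₁def]; exact hconjb c₀
  have hidxx₁ : idx x₁ = m := by rw [hx₁def, ci_idx_conj]; exact hidxx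
  have hx₁conj : ∀ c : G, Commute (c * x₁ * c⁻¹) b := by
    intro c
    have h1 := hconjb (c * c₀)
    have e : c * x₁ * c⁻¹ = c * c₀ * x * (c * c₀)⁻¹ := by rw [hx₁def]; group
    rw [e]; exact h1
  have hrne : r ≠ m := fun h => hrm (h ▸ dvd_rfl)
  have hx₁co : (orderOf x₁).Coprime m := by
    rw [hx₁def, ci_orderOf_conj, hxo]
    exact Nat.Coprime.pow_left k ((Nat.coprime_primes hr hm).mpr hrne)
  -- (8) `w = x₁ x'`: `S ∩ C(w)` is central
  have hkey : ∀ σ ∈ (S : Subgroup G), Commute σ (x₁ * x') → σ ∈ Subgroup.center G := by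
    intro σ hσ hσw
    have hz1 : x₁⁻¹ * (σ * x₁ * σ⁻¹) = x' * (σ * x' * σ⁻¹)⁻¹ := by
      have e : (σ * x₁ * σ⁻¹) * (σ * x' * σ⁻¹) = x₁ * x' := by
        have e0 : σ * (x₁ * x') * σ⁻¹ = x₁ * x' := by rw [hσw.eq]; group
        rw [← e0]; group
      rw [eq_mul_inv_iff_mul_eq, mul_assoc, e]; group
    have hzb : Commute (x₁⁻¹ * (σ * x₁ * σ⁻¹)) b := (hx₁b.inv_left).mul_left (hx₁conj σ)
    have hzg : Commute (x₁⁻¹ * (σ * x₁ * σ⁻¹)) g := by
      rw [hz1]
      exact hxg'.mul_left (hconjg σ).inv_left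
    have hzc := hZ _ hzb hzg
    have hz1' : x₁⁻¹ * (σ * x₁ * σ⁻¹) = 1 := by
      apply ci_coprime_trick x₁ σ _ hzc
      · group
      · obtain ⟨i, hi⟩ := hSm σ hσ
        rw [hi]; exact hx₁co.pow_right i
    have hσx₁ : Commute σ x₁ := by
      have e : σ * x₁ * σ⁻¹ = x₁ := by
        have e0 := congrArg (fun t => x₁ * t) hz1'
        simpa [mul_assoc] using e0
      exact mul_inv_eq_iff_eq_mul.mp e
    have hσx' : Commute σ x' := by
      have h2 : x' * (σ * x' * σ⁻¹)⁻¹ = 1 := by rw [← hz1]; exact hz1'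
      have e : σ * x' * σ⁻¹ = x' := (mul_inv_eq_one.mp h2).symm
      exact mul_inv_eq_iff_eq_mul.mp e
    have hσSb : σ ∈ Sb := hSC x₁ hx₁b hidxx₁ σ hσ hσx₁
    have hσb : Commute σ b := ((hSb σ).mp hσSb).1
    by_contra hσnc
    have hPMσ : PM m m σ := ⟨hm, dvd_rfl, hSm σ hσ, hσnc⟩
    have hidxσ : idx σ = m * n := (hStr m n hyp hNG m σ hPMσ).1
    have hiff := ci_comm_iff hAbb hσb (hidxσ.trans hidxb.symm)
    have hx'b : Commute x' b := (hiff x').mp hσx'.symm
    have hx'c := hZ x' hx'b hxg'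
    have h1 : idx x' = 1 := (Cfsg.Agent.Lib.Helper71.CS3.idx_eq_one_iff x').mpr hx'c
    rw [hidxx'] at h1
    exact hm.one_lt.ne' h1
  have hidxw : idx (x₁ * x') = m * n := by
    rcases Cfsg.Agent.Lib.Helper71.CS3.idx_cases hyp (x₁ * x') with h1 | h1 | h1
    · exfalso
      have hwc := (Cfsg.Agent.Lib.Helper71.CS3.idx_eq_one_iff (x₁ * x')).mp h1
      exact hbnc (hkey b (hSbS hbSb) (Subgroup.mem_center_iff.mp hwc b))
    · exfalso
      have hT : Subgroup.centralizer ({x₁ * x'} : Set G) ⊓ (S : Subgroup G) ≤ Sb := by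
        intro σ hσ
        have hσc := hkey σ hσ.2 ((ci_mem σ _).mp hσ.1)
        exact (hSb σ).mpr ⟨(Subgroup.mem_center_iff.mp hσc b).symm, hSm σ hσ.2⟩
      have hrel := ci_relIndex_card (Subgroup.centralizer ({x₁ * x'} : Set G)) (S : Subgroup G)
      have hle : (Subgroup.centralizer ({x₁ * x'} : Set G)).relIndex (S : Subgroup G) ≤ m := by
        have h2 := Subgroup.relIndex_le_of_le_right (H := Subgroup.centralizer ({x₁ * x'} : Set G))
          (le_top : (S : Subgroup G) ≤ ⊤)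
          (by rw [Subgroup.relIndex_top_right]; exact Subgroup.index_ne_zero_of_finite)
        rw [Subgroup.relIndex_top_right] at h2
        exact h2.trans_eq h1
      have hcard : Nat.card Sb ≤
          Nat.card ↥(Subgroup.centralizer ({x₁ * x'} : Set G) ⊓ (S : Subgroup G)) := by
        have h3 : m * Nat.card Sb ≤
            m * Nat.card ↥(Subgroup.centralizer ({x₁ * x'} : Set G) ⊓ (S : Subgroup G)) := by
          rw [← hcardS, ← hrel]; exact Nat.mul_le_mul_right _ hle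
        exact Nat.le_of_mul_le_mul_left h3 hm.pos
      have e := Subgroup.eq_of_le_of_card_ge hT hcard
      have hbT : b ∈ Subgroup.centralizer ({x₁ * x'} : Set G) ⊓ (S : Subgroup G) := by
        rw [e]; exact hbSb
      exact hbnc (hkey b hbT.2 ((ci_mem b _).mp hbT.1))
    · exact h1
  -- (9) the final contradiction
  have hAbw : AbC (x₁ * x') := hAbC _ hidxw
  obtain ⟨bs, hPMs, hbsw⟩ := hSyl m n hyp m hm dvd_rfl (x₁ * x')
  obtain ⟨hidxbs, Sbs, Abs, hSbs, -, -, hcardGs, ⟨js, hjs⟩, hAbsco⟩ := hStr m n hyp hNG m bs hPMs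
  have hiffs := ci_comm_iff hAbw hbsw (hidxbs.trans hidxw.symm)
  have hx'w : Commute x' (x₁ * x') := hx'x₁.mul_right (Commute.refl x')
  have hx₁w : Commute x₁ (x₁ * x') := (Commute.refl x₁).mul_right hx'x₁.symm
  have hSbsK : Sbs ≤ Subgroup.centralizer ({x'} : Set G) := by
    intro σ hσ
    rw [ci_mem]
    exact hAbw σ x' ((hiffs σ).mp ((hSbs σ).mp hσ).1) hx'w
  have hgK : g ∈ Subgroup.centralizer ({x'} : Set G) := (ci_mem g x').mpr hxg'.symm
  have hcardK : Nat.card (Subgroup.centralizer ({x'} : Set G)) = m ^ js * (Nat.card Abs * n) := by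
    have h1 := Subgroup.card_mul_index (Subgroup.centralizer ({x'} : Set G))
    have h2 : (Subgroup.centralizer ({x'} : Set G)).index = m := hidxx'
    rw [h2, ← hcardGs, hjs] at h1
    have h3 : Nat.card (Subgroup.centralizer ({x'} : Set G)) * m =
        (m ^ js * (Nat.card Abs * n)) * m := by rw [h1]; ring
    exact Nat.eq_of_mul_eq_mul_right hm.pos h3
  have hfactK : (Nat.card (Subgroup.centralizer ({x'} : Set G))).factorization m = js := by
    rw [hcardK]; exact ci_fact hm js _ (Nat.Coprime.mul_left hAbsco hcopn)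
  have hcardsub : Nat.card (Sbs.subgroupOf (Subgroup.centralizer ({x'} : Set G))) =
      m ^ (Nat.card (Subgroup.centralizer ({x'} : Set G))).factorization m := by
    rw [hfactK, ← hjs]
    exact Nat.card_congr (Subgroup.subgroupOfEquivOfLe hSbsK).toEquiv
  obtain ⟨ig, hig⟩ := hSm g hgS
  obtain ⟨d, -, hd⟩ := Cfsg.Agent.Lib.Helper67.exists_conj_mem_sylow_of_le
    (Sylow.ofCard (Sbs.subgroupOf (Subgroup.centralizer ({x'} : Set G))) hcardsub) ⊤ le_top
    (⟨g, hgK⟩ : Subgroup.centralizer ({x'} : Set G)) (Subgroup.mem_top _) ig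
    (by apply Subtype.ext; simp [← hig, pow_orderOf_eq_one])
  have hd' : (d : G) * g * (d : G)⁻¹ ∈ Sbs := by
    have h1 : d * ⟨g, hgK⟩ * d⁻¹ ∈ Sbs.subgroupOf (Subgroup.centralizer ({x'} : Set G)) := hd
    rw [Subgroup.mem_subgroupOf] at h1
    simpa using h1
  have hg₂bs : Commute ((d : G) * g * (d : G)⁻¹) bs := ((hSbs _).mp hd').1
  have hg₂w : Commute ((d : G) * g * (d : G)⁻¹) (x₁ * x') := (hiffs _).mp hg₂bs
  have hg₂nc : (d : G) * g * (d : G)⁻¹ ∉ Subgroup.center G := by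
    intro h
    apply hgnc
    have h2 := (inferInstance : (Subgroup.center G).Normal).conj_mem _ h (d : G)⁻¹
    simpa [mul_assoc] using h2
  have hPMg₂ : PM m m ((d : G) * g * (d : G)⁻¹) :=
    ⟨hm, dvd_rfl, ⟨ig, by rw [ci_orderOf_conj, hig]⟩, hg₂nc⟩
  have hidxg₂ : idx ((d : G) * g * (d : G)⁻¹) = m * n := (hStr m n hyp hNG m _ hPMg₂).1
  have hiff₂ := ci_comm_iff hAbw hg₂w (hidxg₂.trans hidxw.symm)
  have hx₁g₂ : Commute x₁ ((d : G) * g * (d : G)⁻¹) := (hiff₂ x₁).mpr hx₁w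
  have hyg : Commute ((d : G)⁻¹ * x₁ * ((d : G)⁻¹)⁻¹) g := by
    have e := hx₁g₂.eq
    show (d : G)⁻¹ * x₁ * ((d : G)⁻¹)⁻¹ * g = g * ((d : G)⁻¹ * x₁ * ((d : G)⁻¹)⁻¹)
    have e2 : (d : G)⁻¹ * x₁ * ((d : G)⁻¹)⁻¹ * g =
        (d : G)⁻¹ * (x₁ * ((d : G) * g * (d : G)⁻¹)) * (d : G) := by group
    rw [e2, e]; group
  have hyb : Commute ((d : G)⁻¹ * x₁ * ((d : G)⁻¹)⁻¹) b := hx₁conj (d : G)⁻¹
  have hyc := hZ _ hyb hyg
  have h1 : idx ((d : G)⁻¹ * x₁ * ((d : G)⁻¹)⁻¹) = 1 :=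
    (Cfsg.Agent.Lib.Helper71.CS3.idx_eq_one_iff _).mpr hyc
  rw [ci_idx_conj, hidxx₁] at h1
  exact hm.one_lt.ne' h1

end Cfsg.Agent.Lib.Helper70.CS3
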