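import Mathlib
import Cfsg.Agent.S4134
import Cfsg.Agent.Lib.Helper41.CS3.GoodDefs

/-!
# CS3 (S4284), part GOOD, package [ITO]: Ito's theorem on `N` when `N` is not abelian.
-/

set_option autoImplicit false

namespace Cfsg.Agent.Lib.Helper70.CS3

open Cfsg.Agent.Lib.Helper81.CS3 Cfsg.Agent.Lib.Helper41.CS3

universe u

variable {G : Type u} [Group G]

theorem ito_cent_eq (N : Subgroup G) (x : ↥N) :
    Subgroup.centralizer ({x} : Set ↥N) = (Cn (x : G)).subgroupOf N := by
  ext y
  rw [Subgroup.mem_centralizer_iff, Subgroup.mem_subgroupOf, Subgroup.mem_centralizer_iff]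
  constructor
  · intro h z hz
    rw [Set.mem_singleton_iff] at hz
    rw [hz]
    exact congrArg Subtype.val (h x rfl)
  · intro h z hz
    rw [Set.mem_singleton_iff] at hz
    rw [hz]
    exact Subtype.ext (h (x : G) rfl)

theorem ito_relIndex_card (H K : Subgroup G) :
    H.relIndex K * Nat.card ↥(H ⊓ K) = Nat.card K := by
  have h1 := Subgroup.card_mul_index ((H ⊓ K).subgroupOf K)
  have h2 : Nat.card ↥((H ⊓ K).subgroupOf K) = Nat.card ↥(H ⊓ K) :=
    Nat.card_congr (Subgroup.subgroupOfEquivOfLe inf_le_right).toEquiv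
  rw [h2] at h1
  have h3 : ((H ⊓ K).subgroupOf K).index = H.relIndex K := by
    rw [Subgroup.inf_subgroupOf_right]; rfl
  rw [h3, mul_comm] at h1
  exact h1

theorem ito_card_inf (T B N C : Subgroup G) (hdis : T ⊓ B = ⊥)
    (hdecomp : ∀ x ∈ N, ∃ b ∈ B, ∃ p ∈ T, x = b * p) (hT : T ≤ N) (hB : B ≤ N) (hBC : B ≤ C) :
    Nat.card ↥(C ⊓ N) = Nat.card B * Nat.card ↥(C ⊓ T) := by
  rw [← Nat.card_prod]
  symm
  let f : ↥B × ↥(C ⊓ T) → ↥(C ⊓ N) := fun q =>
    ⟨(q.1 : G) * (q.2 : G), ⟨C.mul_mem (hBC q.1.2) q.2.2.1, N.mul_mem (hB q.1.2) (hT q.2.2.2)⟩⟩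
  apply Nat.card_congr (Equiv.ofBijective f ⟨?_, ?_⟩)
  · rintro ⟨b, p⟩ ⟨b', p'⟩ h
    have h' : (b : G) * (p : G) = (b' : G) * (p' : G) := congrArg Subtype.val h
    have h1 : (b' : G)⁻¹ * (b : G) = (p' : G) * (p : G)⁻¹ := by
      rw [inv_mul_eq_iff_eq_mul, ← mul_assoc, ← h', mul_assoc, mul_inv_cancel, mul_one]
    have h2 : (b' : G)⁻¹ * (b : G) ∈ T ⊓ B :=
      ⟨by rw [h1]; exact T.mul_mem p'.2.2 (T.inv_mem p.2.2), B.mul_mem (B.inv_mem b'.2) b.2⟩
    rw [hdis, Subgroup.mem_bot] at h2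
    have hb : (b : G) = (b' : G) := (inv_mul_eq_one.mp h2).symm
    have hp : (p : G) = (p' : G) := by rw [hb] at h'; exact mul_left_cancel h'
    exact Prod.ext (Subtype.ext hb) (Subtype.ext hp)
  · rintro ⟨x, hxC, hxN⟩
    obtain ⟨b, hb, p, hp, rfl⟩ := hdecomp x hxN
    have hpC : p ∈ C := by
      have h3 := C.mul_mem (C.inv_mem (hBC hb)) hxC
      simpa using h3
    exact ⟨(⟨b, hb⟩, ⟨p, hpC, hp⟩), rfl⟩

theorem ito_card_sup_dvd [Finite G] (A B : Subgroup G) (hAB : Comm A B) :
    Nat.card ↥(A ⊔ B) ∣ Nat.card A * Nat.card B := by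
  have comm : ∀ (x : A) (y : B), Commute (A.subtype x) (B.subtype y) :=
    fun x y => hAB x x.2 y y.2
  have hr : (MonoidHom.noncommCoprod A.subtype B.subtype comm).range = A ⊔ B := by
    rw [MonoidHom.noncommCoprod_range, Subgroup.range_subtype, Subgroup.range_subtype]
  have h1 := Subgroup.card_dvd_of_surjective
    (MonoidHom.noncommCoprod A.subtype B.subtype comm).rangeRestrict
    (MonoidHom.rangeRestrict_surjective _)
  rw [Nat.card_prod, hr] at h1
  exact h1

/-- **[ITO]** -/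
theorem pkgIto : PkgIto.{u} := by
  intro G _ _ m n hyp s a Sa N hgood hdec hnab
  have hn1 : 1 < n := hyp.2.2.1
  have hcop : m.Coprime n := hyp.2.2.2.1
  -- class sizes of `↥N`
  have hidx : ∀ x : ↥N, (Subgroup.centralizer ({x} : Set ↥N)).index = (Cn (x : G)).relIndex N := by
    intro x
    rw [ito_cent_eq]; rfl
  have hcl : ∀ x : ↥N, (Subgroup.centralizer ({x} : Set ↥N)).index = 1 ∨
      (Subgroup.centralizer ({x} : Set ↥N)).index = n := by
    intro x
    rw [hidx]
    have h1 := ito_relIndex_card (Cn (x : G)) N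
    have hpos : 0 < Nat.card ↥(Cn (x : G) ⊓ N) := Nat.card_pos
    rcases hdec.cls x x.2 with h | h
    · left
      rw [h] at h1
      exact Nat.eq_of_mul_eq_mul_right hpos (by rw [h1, one_mul])
    · right
      rw [h] at h1
      exact Nat.eq_of_mul_eq_mul_right hpos h1
  have hex : ∃ x : ↥N, (Subgroup.centralizer ({x} : Set ↥N)).index = n := by
    have hnab' : ∃ x ∈ N, ∃ y ∈ N, x * y ≠ y * x := by
      by_contra hcon
      push Not at hcon
      exact hnab hcon
    obtain ⟨x, hx, y, hy, hxy⟩ := hnab'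
    refine ⟨⟨x, hx⟩, ?_⟩
    rcases hcl ⟨x, hx⟩ with h | h
    · exfalso
      rw [hidx, Subgroup.relIndex_eq_one] at h
      have hyc := h hy
      rw [Subgroup.mem_centralizer_iff] at hyc
      exact hxy (hyc x rfl)
    · exact h
  obtain ⟨t, ht, e, hne, hP⟩ := Cfsg.Agent.S4134.result n hn1 hcl hex
  obtain ⟨P⟩ : Nonempty (Sylow t ↥N) := inferInstance
  obtain ⟨-, ⟨N', -, hcompl, hN'comm, hN'P⟩, -⟩ := hP P
  have htp : t.Prime := ht.out
  have hTN : (P : Subgroup ↥N).map N.subtype ≤ N := Subgroup.map_subtype_le _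
  have hBN : N'.map N.subtype ≤ N := Subgroup.map_subtype_le _
  have hTB : Comm ((P : Subgroup ↥N).map N.subtype) (N'.map N.subtype) := by
    rintro x ⟨p, hp, rfl⟩ y ⟨b, hb, rfl⟩
    exact (congrArg Subtype.val (hN'P b hb p hp)).symm
  have hBab : Ab (N'.map N.subtype) := by
    rintro x ⟨b, hb, rfl⟩ y ⟨b', hb', rfl⟩
    have h1 := mul_comm' (⟨b, hb⟩ : N') ⟨b', hb'⟩
    exact congrArg (fun z : N' => ((z : ↥N) : G)) h1
  have hdis : (P : Subgroup ↥N).map N.subtype ⊓ N'.map N.subtype = ⊥ := by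
    rw [eq_bot_iff]
    rintro x ⟨⟨p, hp, rfl⟩, ⟨b, hb, hbp⟩⟩
    have hbp' : b = p := Subtype.ext hbp
    subst hbp'
    have h1 : b ∈ N' ⊓ (P : Subgroup ↥N) := ⟨hb, hp⟩
    rw [hcompl.disjoint.eq_bot, Subgroup.mem_bot] at h1
    rw [h1]
    simp
  have hdecomp : ∀ x ∈ N, ∃ b ∈ N'.map N.subtype, ∃ p ∈ (P : Subgroup ↥N).map N.subtype,
      x = b * p := by
    intro x hx
    obtain ⟨q, hq, -⟩ := (Subgroup.IsComplement.existsUnique hcompl (⟨x, hx⟩ : ↥N))
    refine ⟨((q.1 : ↥N) : G), ⟨q.1, q.1.2, rfl⟩, ((q.2 : ↥N) : G), ⟨q.2, q.2.2, rfl⟩, ?_⟩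
    exact (congrArg Subtype.val hq).symm
  have hsupN : (P : Subgroup ↥N).map N.subtype ⊔ N'.map N.subtype = N := by
    apply le_antisymm (sup_le hTN hBN)
    intro x hx
    obtain ⟨b, hb, p, hp, rfl⟩ := hdecomp x hx
    exact Subgroup.mul_mem _ (Subgroup.mem_sup_right hb) (Subgroup.mem_sup_left hp)
  have hPidx : ¬ t ∣ (P : Subgroup ↥N).index := P.not_dvd_index
  have hcardB : Nat.card ↥(N'.map N.subtype) = Nat.card N' := Subgroup.card_subtype N N'
  have hte : e ≠ 0 := by
    rintro rfl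
    rw [pow_zero] at hne
    omega
  have htn : t ∣ n := by rw [hne]; exact dvd_pow_self t hte
  have htm : ¬ t ∣ m := by
    intro h
    have h1 := Nat.dvd_gcd h htn
    rw [hcop] at h1
    exact htp.one_lt.ne' (Nat.dvd_one.mp h1)
  have hsp : s.Prime := hgood.sp
  have hts : t ≠ s := by
    rintro rfl
    exact htm hgood.sm
  have hNidx : ¬ t ∣ N.index := by
    intro h
    have h1 : N.index * Nat.card N = m * Nat.card ↥(Cn a) := by
      rw [Subgroup.index_mul_card, ← Subgroup.index_mul_card (Cn a)]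
      have h2 : (Cn a).index = m := hgood.ixa
      rw [h2]
    have h3 : Nat.card ↥(Cn a) ∣ Nat.card Sa * Nat.card N := by
      rw [← hdec.sup]; exact ito_card_sup_dvd Sa N hdec.comm
    have h4 : N.index * Nat.card N ∣ (m * Nat.card Sa) * Nat.card N := by
      rw [h1, mul_assoc]; exact Nat.mul_dvd_mul_left m h3
    have h5 : N.index ∣ m * Nat.card Sa :=
      (Nat.mul_dvd_mul_iff_right (Nat.card_pos : 0 < Nat.card N)).mp h4
    have h6 := h.trans h5
    rcases (Nat.Prime.dvd_mul htp).mp h6 with h7 | h7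
    · exact htm h7
    · haveI : Fact s.Prime := ⟨hsp⟩
      obtain ⟨i, hi⟩ := IsPGroup.iff_card.mp hdec.pS
      rw [hi] at h7
      exact hts ((Nat.prime_dvd_prime_iff_eq htp hsp).mp (htp.dvd_of_dvd_pow h7))
  refine ⟨t, (P : Subgroup ↥N).map N.subtype, N'.map N.subtype, ?_⟩
  exact
    { tp := htp
      tn := ⟨e, hne⟩
      sa_t := fun x hx y hy => hdec.comm x hx y (hTN hy)
      sa_b := fun x hx y hy => hdec.comm x hx y (hBN hy)
      t_b := hTB
      b_ab := hBab
      sup := by rw [sup_assoc, hsupN]; exact hdec.sup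
      pS := hdec.pS
      pT := P.isPGroup'.map N.subtype
      copB := by
        rw [hcardB, ← hcompl.index_eq_card]
        exact ((Nat.Prime.coprime_iff_not_dvd htp).mpr hPidx).symm
      copBs := Nat.Coprime.coprime_dvd_left (Subgroup.card_dvd_of_le hBN) hdec.cop
      sylT := by
        rw [Subgroup.index_map_subtype]
        intro h
        rcases (Nat.Prime.dvd_mul htp).mp h with h1 | h1
        · exact hPidx h1
        · exact hNidx h1
      nab := by
        intro hT
        apply hnab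
        intro x hx y hy
        obtain ⟨b, hb, p, hp, rfl⟩ := hdecomp x hx
        obtain ⟨b', hb', p', hp', rfl⟩ := hdecomp y hy
        have h1 : Commute b b' := hBab b hb b' hb'
        have h2 : Commute p p' := hT p hp p' hp'
        have h3 : Commute p b' := hTB p hp b' hb'
        have h4 : Commute b p' := (hTB p' hp' b hb).symm
        exact ((h1.mul_right h4).mul_left (h3.mul_right h2))
      cls := by
        rintro y hyT ⟨z, hzT, hyz⟩
        have hyN := hTN hyT
        rcases hdec.cls y hyN with h | h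
        · exfalso
          have e1 : Cn y ⊓ N = N := Subgroup.eq_of_le_of_card_ge inf_le_right (by rw [h])
          have hz : z ∈ Cn y ⊓ N := by rw [e1]; exact hTN hzT
          have hzc : z ∈ Subgroup.centralizer ({y} : Set G) := hz.1
          rw [Subgroup.mem_centralizer_iff] at hzc
          exact hyz (hzc y rfl)
        · have hBC : N'.map N.subtype ≤ Cn y := by
            intro b hb
            rw [Subgroup.mem_centralizer_iff]
            intro y' hy'
            rw [Set.mem_singleton_iff] at hy'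
            subst hy'
            exact hTB y' hyT b hb
          have e2 := ito_card_inf _ _ N (Cn y) hdis hdecomp hTN hBN hBC
          have e1 := ito_card_inf _ _ N ⊤ hdis hdecomp hTN hBN le_top
          rw [top_inf_eq, top_inf_eq] at e1
          rw [e1, e2] at h
          have hpos : 0 < Nat.card ↥(N'.map N.subtype) := Nat.card_pos
          exact Nat.eq_of_mul_eq_mul_left hpos (by rw [h]; ring) }

end Cfsg.Agent.Lib.Helper70.CS3
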